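import Cfsg.Agent.Lib.CharDeg.FullyRam
import Cfsg.Agent.Lib.Rel.Triple
import Cfsg.Agent.Lib.Comp.GenFitting

/-! Groups of central type: reduction to a central faithful character and its consequences. -/

set_option autoImplicit false

namespace Cfsg.Lib.CT2

open Cfsg.Lib.PF Cfsg.Lib.Rel Cfsg.Lib.CharDeg Subgroup
open scoped ComplexConjugate commutatorElement

universe u

variable {X : Type*} [Group X] [Finite X]

/-- only one irreducible character lies over `θ` -/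
def Uniq (G N : Subgroup X) (θ : X → ℂ) : Prop := ∀ χ ∈ IrrO G N θ, ∀ ψ ∈ IrrO G N θ, χ = ψ

structure CT (Z : Subgroup X) (μ : X → ℂ) : Prop where
  cent : Z ≤ center X
  irr : μ ∈ Irr Z
  faith : ∀ z ∈ Z, μ z = 1 → z = 1
  uniq : Uniq ⊤ Z μ

omit [Finite X] in
theorem normal_of_cent {Z : Subgroup X} (h : Z ≤ center X) : Z.Normal :=
  ⟨fun n hn g => by rwa [mem_center_iff.1 (h hn) g, mul_inv_cancel_right]⟩

theorem uniq_of_fRam {Z : Subgroup X} {θ : X → ℂ} {e : ℕ} (h : FRam Z θ e) : Uniq ⊤ Z θ :=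
  fun _ h1 _ h2 => (h.eq_of_over le_top h.top (mem_IrrO.1 h1).1 (mem_IrrO.1 h1).2).trans
    (h.eq_of_over le_top h.top (mem_IrrO.1 h2).1 (mem_IrrO.1 h2).2).symm

theorem fRam_of_uniq {Z : Subgroup X} [hZ : Z.Normal] {θ : X → ℂ} (hθ : θ ∈ Irr Z)
    (hI : ⊤ ≤ inertia θ) (h : Uniq ⊤ Z θ) : ∃ e, FRam Z θ e := by
  obtain ⟨χ, hχ, hne⟩ := Irr.exists_ind_constituent (le_top : Z ≤ ⊤) hθ
  obtain ⟨e, he⟩ := (Irr.isChar hχ).exists_cfdot_res_nat le_top (Irr.isChar hθ)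
  have h1 : ∀ ψ ∈ Irr (⊤ : Subgroup X), cfdot Z ψ θ ≠ 0 → ψ = χ := fun ψ a b =>
    h _ (mem_IrrO.2 ⟨a, b⟩) _ (mem_IrrO.2 ⟨hχ, hne⟩)
  obtain ⟨C, hC, h2, h3, -⟩ := ind_eq_smul_sum_of_const le_top (le_normalizer_of_normal' Z ⊤) hθ
    (e := e) fun ψ a b => by rw [h1 ψ a b, he]
  obtain rfl : C = {χ} := Finset.eq_singleton_iff_unique_mem.2 ⟨(hC _).2 ⟨hχ, hne⟩,
    fun ψ a => h1 ψ ((hC _).1 a).1 ((hC _).1 a).2⟩
  rw [inf_eq_left.2 hI, Finset.card_singleton, mul_one] at h2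
  rw [Finset.sum_singleton] at h3
  obtain ⟨h4, h5⟩ := res_eq_of_ind_eq_smul le_top hθ hχ h3 h2
  rw [res_eq_self h5] at h4
  exact ⟨e, hZ, hθ, h4 ▸ hχ, by rwa [relIndex_top_right] at h2⟩

theorem exists_ct {X : Type u} [Group X] [Finite X] {G N : Subgroup X} {θ : X → ℂ} (hNG : N ≤ G)
    (hn : G ≤ normalizer (N : Set X)) (hθ : θ ∈ Irr N) (hI : G ≤ inertia θ) (hu : Uniq G N θ) :
    ∃ (Γ Y : Type u) (_ : Group Γ) (_ : Finite Γ) (_ : Group Y) (_ : Finite Y) (π : Γ →* X)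
      (q : Γ →* Y) (Z : Subgroup Y) (μ : Y → ℂ), π.range = G ∧ Function.Surjective q ∧
        N.comap π = Z.comap q ∧ CT Z μ := by
  obtain ⟨Γ, Y, _, _, _, _, π, q, μ, Φ, h, -⟩ := exists_triple hNG le_rfl le_normalizer hn hθ hI
  have hb := h.bij G hNG le_rfl
  rw [h.up_top] at hb
  have hK : cfker μ ≤ up π q N := Irr.cfker_le h.irr
  haveI : (cfker μ).Normal := normal_of_cent (hK.trans h.cent)
  set f := QuotientGroup.mk' (cfker μ)
  have hf : Function.Surjective f := QuotientGroup.mk'_surjective _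
  have hk : f.ker = cfker μ := QuotientGroup.ker_mk' _
  obtain ⟨ν, hν, e⟩ := exists_pull f h.irr hk.le
  have hp : ∀ χ ∈ IrrO ⊤ ((up π q N).map f) ν, χ ∘ f ∈ IrrO ⊤ (up π q N) μ := fun χ hχ =>
    mem_IrrO.2 ⟨comap_top f ▸ pull_mem_Irr f (f.range_eq_top_of_surjective hf).ge (mem_IrrO.1 hχ).1,
      fun e' => (mem_IrrO.1 hχ).2 (by rw [← cfdot_pull_map, e, e'])⟩
  refine ⟨Γ, Y ⧸ cfker μ, inferInstance, inferInstance, inferInstance, inferInstance, π, f.comp q,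
    (up π q N).map f, ν, h.range, hf.comp h.surj, ?_, ?_, hν, ?_, fun χ h1 ψ h2 => ?_⟩
  · rw [← comap_comap, comap_map_eq_self (hk.le.trans hK), h.comap_up le_rfl]
  · exact (map_mono h.cent).trans (Comp.map_center_le_center_of_surjective hf)
  · rintro _ ⟨z, hz, rfl⟩ h1
    exact (MonoidHom.mem_ker).1 (hk.ge ((Irr.mem_cfker_iff h.irr).2 (by
      rw [h.one, ← h1]; exact (congrFun e z).symm)))
  · exact hf.injective_comp_right (hb.injOn (hp χ h1) (hp ψ h2)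
      (hu _ (hb.mapsTo (hp χ h1)) _ (hb.mapsTo (hp ψ h2))))

namespace CT

variable {Z R U M A Q : Subgroup X} {μ χ ψ : X → ℂ} (h : CT Z μ)
include h

theorem normal : Z.Normal := normal_of_cent h.cent

theorem comm : ∀ z ∈ Z, ∀ u ∈ U, u * z = z * u := fun _ hz u _ => mem_center_iff.1 (h.cent hz) u

theorem one : μ 1 = 1 := Irr.apply_one_of_comm h.irr fun a _ b hb => h.comm b hb a (mem_top a)

theorem fRam : ∃ e, FRam Z μ e := by
  haveI := h.normal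
  refine fRam_of_uniq h.irr (fun g _ => mem_inertia_of (Irr.mem_CF h.irr)
    (le_normalizer_of_normal' Z ⊤ (mem_top g)) fun x hx => ?_) h.uniq
  rw [h.comm x hx g (mem_top g), mul_inv_cancel_right]

theorem vanish (hZU : Z ≤ U) (hχ : χ ∈ IrrO U Z μ) {g y : X} (hg : g ∈ U) (h1 : ⁅g, y⁆ ∈ Z)
    (h2 : ⁅g, y⁆ ≠ 1) : χ y = 0 := by
  have e := apply_mul_of_central hZU h.comm h.irr hχ h1 y
  rw [commutatorElement_def, inv_mul_cancel_right, CF.conj (Irr.mem_CF (mem_IrrO.1 hχ).1) hg] at e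
  by_contra h0
  exact h2 (h.faith _ h1 (mul_right_cancel₀ h0 (e.symm.trans (one_mul _).symm)))

theorem exists_commutator (hZR : Z ≤ R) (hu : ∀ χ ∈ IrrO R Z μ, ∀ x, x ∉ Z → χ x = 0) {y : X}
    (hy : y ∈ R) (hyZ : y ∉ Z) : ∃ g ∈ R, ⁅g, y⁆ ∈ Z ∧ ⁅g, y⁆ ≠ 1 := by
  by_contra hn
  push Not at hn
  have h1 : ∀ χ ∈ Irr R, ∑ z ∈ fs (Z : Set X), μ z * (χ y * conj (χ (z * y))) = 0 := by
    intro χ hχ
    obtain ⟨ν, hν, hne⟩ := Irr.exists_res_constituent hZR hχ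
    by_cases e : μ = ν
    · subst e
      simp [hu χ (mem_IrrO.2 ⟨hχ, hne⟩) y hyZ]
    · rw [sum_fs_congr (g := fun z => μ z * conj (ν z) * (χ y * conj (χ y))) fun z hz => by
        rw [apply_mul_of_central hZR h.comm hν (mem_IrrO.2 ⟨hχ, hne⟩) hz, map_mul]; ring,
        ← Finset.sum_mul, ← card_mul_cfdot, Irr.cfdot_ne h.irr hν e]
      simp
  have h2 := Finset.sum_eq_zero h1
  rw [Finset.sum_comm, Finset.sum_eq_single_of_mem 1 (mem_fs.2 Z.one_mem) fun z hz hz1 => by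
    rw [← Finset.mul_sum, sum_Irr_mul_conj_eq_zero hy fun g hg e => ?_, mul_zero]
    have e' : ⁅g, y⁆ = z := by rw [commutatorElement_def, e, mul_inv_cancel_right]
    exact hz1 (e' ▸ hn g hg (e' ▸ mem_fs.1 hz))] at h2
  simp only [h.one, one_mul, Complex.mul_conj, Complex.normSq_eq_norm_sq] at h2
  have h3 := sum_Irr_norm_sq hy
  rw [show ∑ χ ∈ Irr R, ‖χ y‖ ^ 2 = 0 by exact_mod_cast h2] at h3
  exact (card_pos_real _).ne h3

theorem isSquare (hc : ⁅Q, Q⁆ ≤ Z) (hq : ∀ y ∈ Q, (∀ g ∈ Q, ⁅g, y⁆ = 1) → y ∈ Z) :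
    IsSquare (Z.relIndex Q) := by
  haveI := h.normal
  have hZ : Z ≤ Z ⊔ Q := le_sup_left
  obtain ⟨ψ, hψ, hne⟩ := Irr.exists_ind_constituent hZ h.irr
  obtain ⟨a, ha⟩ := (Irr.isChar hψ).exists_cfdot_res_nat hZ (Irr.isChar h.irr)
  obtain ⟨e, hf⟩ := h.fRam
  have h1 := Irr.res_eq_smul_of_le_inertia hZ (le_normalizer_of_normal' Z _) hψ h.irr hne
    (hf.le_inertia _)
  have h2 := cfdot_self_of_CFon hZ (le_normalizer_of_normal' Z _) (χ := ψ)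
    (mem_CFon_of (Irr.mem_CF hψ) fun x hx hxZ => by
      obtain ⟨z, hz, y, hy, rfl⟩ := mem_sup_of_normal_left.1 hx
      have : ¬ ∀ g ∈ Q, ⁅g, y⁆ = 1 := fun e => hxZ (Z.mul_mem hz (hq y hy e))
      push Not at this
      obtain ⟨g, hg, e⟩ := this
      rw [apply_mul_of_central hZ h.comm h.irr (mem_IrrO.2 ⟨hψ, hne⟩) hz,
        h.vanish hZ (mem_IrrO.2 ⟨hψ, hne⟩) (mem_sup_right hg) (hc (commutator_mem_commutator hg hy)) e,
        mul_zero])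
  rw [Irr.cfdot_self hψ, mul_one, ← cfdot_res_left, ← cfdot_res_right, h1, ha, cfdot_smul_left,
    cfdot_smul_right, Irr.cfdot_self h.irr, relIndex_sup_left] at h2
  rw [map_natCast, mul_one] at h2
  exact ⟨a, by exact_mod_cast h2.symm⟩

theorem sylow {p : ℕ} [hp : Fact p.Prime] (P : Sylow p X) : ∃ j, Z.relIndex P = p ^ (2 * j) ∧
    ((p ^ j : ℕ) : ℂ) • μ ∈ Irr (Z ⊔ (P : Subgroup X)) := by
  haveI := h.normal
  obtain ⟨e, hf⟩ := h.fRam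
  obtain ⟨n, hn⟩ := P.2.exists_card_eq
  obtain ⟨k, -, hk⟩ := (Nat.dvd_prime_pow hp.out).1 (hn ▸ relIndex_dvd_card Z P)
  obtain ⟨j, rfl, h1⟩ := hf.sylow (R := Z ⊔ P) le_sup_left hp.out (by rwa [relIndex_sup_left])
    fun hd => P.not_dvd_index (hd.trans (index_dvd_of_le le_sup_right))
  exact ⟨j, hk, h1⟩

theorem f1 {p : ℕ} [Fact p.Prime] (P : Sylow p X) {y : X} (hy : y ∈ Z ⊔ (P : Subgroup X))
    (hyZ : y ∉ Z) : ∃ g ∈ (P : Subgroup X), ⁅g, y⁆ ∈ Z ∧ ⁅g, y⁆ ≠ 1 := by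
  haveI := h.normal
  obtain ⟨j, -, h1⟩ := h.sylow P
  obtain ⟨e, hf⟩ := h.fRam
  obtain ⟨g, hg, h2⟩ := h.exists_commutator le_sup_left (fun χ hχ x hx => by
    rw [hf.eq_of_over le_sup_left h1 (mem_IrrO.1 hχ).1 (mem_IrrO.1 hχ).2, Pi.smul_apply,
      CF.zero_off (Irr.mem_CF h.irr) hx, smul_zero]) hy hyZ
  obtain ⟨z, hz, u, hu, rfl⟩ := mem_sup_of_normal_left.1 hg
  have e : ⁅z * u, y⁆ = ⁅u, y⁆ := by
    have := h.comm z hz (u * y * u⁻¹) (mem_top _)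
    calc ⁅z * u, y⁆ = z * (u * y * u⁻¹) * z⁻¹ * y⁻¹ := by group
      _ = _ := by rw [← this]; group
  exact ⟨u, hu, e ▸ h2⟩

theorem f2 {p : ℕ} [Fact p.Prime] (P : Sylow p X) (hA : A ≤ Z ⊔ (P : Subgroup X))
    (hc : ∀ a ∈ A, ∀ b ∈ A, a * b = b * a) : Z.relIndex A ^ 2 ≤ Z.relIndex P := by
  haveI := h.normal
  obtain ⟨j, hj, h1⟩ := h.sylow P
  have hle : Z ⊔ A ≤ Z ⊔ (P : Subgroup X) := sup_le le_sup_left hA
  have h2 := Irr.deg_sq_le h1 bot_le le_rfl hle bot_le fun d hd c hc' => by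
    obtain ⟨z, hz, a, ha, rfl⟩ := mem_sup_of_normal_left.1 hd
    obtain ⟨w, hw, b, hb, rfl⟩ := mem_sup_of_normal_left.1 hc'
    have c1 : Commute w (z * a) := (h.comm w hw _ (mem_top _)).symm
    have c2 : Commute b z := h.comm z hz _ (mem_top _)
    rw [mem_bot, ← commutatorElement_def, commutatorElement_eq_one_iff_commute]
    exact c1.mul_left (c2.mul_right (hc b hb a ha))
  rw [deg_of_eq (n := p ^ j) (by simp [h.one]), relIndex_self, mul_one] at h2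
  have h3 := relIndex_mul_relIndex Z (Z ⊔ A) _ le_sup_left hle
  rw [relIndex_sup_left, relIndex_sup_left, hj, pow_mul'] at h3
  rw [hj, pow_mul']
  have h4 : p ^ j ≤ (Z ⊔ A).relIndex (Z ⊔ (P : Subgroup X)) := by nlinarith
  have h5 : 0 < p ^ j := pow_pos (Fact.out : p.Prime).pos j
  refine Nat.pow_le_pow_left (Nat.le_of_mul_le_mul_right ?_ h5) 2
  calc Z.relIndex A * p ^ j ≤ _ := Nat.mul_le_mul_left _ h4
    _ = _ := by rw [h3, sq]

theorem uniq_inertia [M.Normal] (hZM : Z ≤ M) (hψ : ψ ∈ IrrO M Z μ) : Uniq (inertia ψ) M ψ := by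
  obtain ⟨h1, h2⟩ := mem_IrrO.1 hψ
  have hM := CF.le_inertia (Irr.mem_CF h1)
  have hn := le_normalizer_of_normal' M ⊤
  have k : ∀ χ ∈ IrrO (inertia ψ) M ψ, ind (inertia ψ) ⊤ χ ∈ IrrO ⊤ Z μ := fun χ hχ => by
    obtain ⟨a, b⟩ := mem_IrrO.1 hχ
    have c := ind_mem_Irr_of_over hM le_top hn h1 inf_le_right a b
    exact mem_IrrO.2 ⟨c, (Irr.isChar c).cfdot_ne_zero_trans hZM le_top h1 (Irr.isChar h.irr)
      (by rwa [cfdot_ind_of_over hM le_top hn h1 inf_le_right a b]) h2⟩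
  exact fun χ a χ' b => eq_of_ind_eq_of_over hM le_top hn h1 inf_le_right (mem_IrrO.1 a).1
    (mem_IrrO.1 b).1 (mem_IrrO.1 a).2 (mem_IrrO.1 b).2 (h.uniq _ (k χ a) _ (k χ' b))

theorem exists_mul_mem_inertia [M.Normal] (hZM : Z ≤ M) (hMU : M ≤ U) (hψ : ψ ∈ IrrO M Z μ)
    (hU : ∀ y ∈ M, y ∉ Z → ∃ g ∈ U, ⁅g, y⁆ ∈ Z ∧ ⁅g, y⁆ ≠ 1) (x : X) :
    ∃ c ∈ U, c * x⁻¹ ∈ inertia ψ := by
  obtain ⟨h1, h2⟩ := mem_IrrO.1 hψ
  obtain ⟨e, hf⟩ := h.fRam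
  obtain ⟨χ, hχ, hne⟩ := Irr.exists_ind_constituent hMU h1
  have h3 := (Irr.isChar hχ).cfdot_ne_zero_trans hZM hMU h1 (Irr.isChar h.irr) hne h2
  have h4 : cfConj x ψ ∈ Irr M := Irr.cfConj_mem (le_normalizer_of_normal' M ⊤ (mem_top x)) h1
  have h5 := card_mul_cfdot_of_le (φ := χ) (ψ := cfConj x ψ) hZM fun y hy hyZ => by
    obtain ⟨g, hg, a, b⟩ := hU y hy hyZ
    exact .inl (h.vanish (hZM.trans hMU) (mem_IrrO.2 ⟨hχ, h3⟩) hg a b)
  haveI := h.normal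
  have h6 := Irr.res_eq_smul_of_le_inertia (hZM.trans hMU) (le_normalizer_of_normal' Z _) hχ h.irr h3
    (hf.le_inertia _)
  rw [← cfdot_res_left (H := Z), h6, cfdot_smul_left] at h5
  have h7 : cfdot M χ (cfConj x ψ) ≠ 0 := fun e => by
    rw [e, mul_zero] at h5
    refine mul_ne_zero (card_ne_zero Z) (mul_ne_zero h3 fun e' => h2 ?_) h5.symm
    rw [← hf.cfdot_cfConj x, cfdot_symm_zero e']
  obtain ⟨c, hc, e⟩ := PF.mem_cfclass.1
    (Irr.mem_cfclass_of_over hMU (le_normalizer_of_normal' M U) hχ h1 h4 hne h7)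
  exact ⟨c, hc, cfConj_eq_cfConj_iff.1 e⟩

end CT

end Cfsg.Lib.CT2
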