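import Cfsg.Agent.Lib.CT2.Char
import Cfsg.Agent.Lib.PGroup.MaxClass
import Cfsg.Agent.Lib.FGS.Count
import Cfsg.Agent.Lib.FGS.Sylow
import Cfsg.Agent.Lib.Transfer.Fusion

/-! Groups of central type with small non-abelian Sylow subgroups: local lemmas. -/

set_option autoImplicit false

namespace Cfsg.Lib.CT2

open Cfsg.Lib.Transfer Subgroup
open scoped commutatorElement

variable {X : Type*} [Group X]

/-- centralizer of `M` modulo `Z` -/
def cm (Z : Subgroup X) [Z.Normal] (M : Subgroup X) : Subgroup X :=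
  (centralizer (M.map (QuotientGroup.mk' Z) : Set (X ⧸ Z))).comap (QuotientGroup.mk' Z)

/-- large Sylow subgroups of `G/Z` are abelian -/
def Hyp (G Z : Subgroup X) : Prop :=
  ∀ p : ℕ, p.Prime → p ^ 6 ∣ Z.relIndex G → ∀ P ≤ G, IsPGroup p P → ⁅P, P⁆ ≤ Z

section

variable {Z M A B : Subgroup X} [hZ : Z.Normal]

theorem commute_mk_iff {a b : X} :
    QuotientGroup.mk' Z a * QuotientGroup.mk' Z b = QuotientGroup.mk' Z b * QuotientGroup.mk' Z a ↔
      ⁅a, b⁆ ∈ Z := by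
  rw [← commutatorElement_eq_one_iff_mul_comm, ← map_commutatorElement, QuotientGroup.mk'_apply,
    QuotientGroup.eq_one_iff]

theorem mem_cm {c : X} : c ∈ cm Z M ↔ ∀ m ∈ M, ⁅c, m⁆ ∈ Z := by
  rw [cm, mem_comap, mem_centralizer_iff]
  refine ⟨fun h m hm => commute_mk_iff.1 (h _ ⟨m, hm, rfl⟩).symm, ?_⟩
  rintro h _ ⟨m, hm, rfl⟩
  exact (commute_mk_iff.2 (h m hm)).symm

theorem le_cm : A ≤ cm Z M ↔ ⁅A, M⁆ ≤ Z := by
  rw [commutator_le]
  exact forall₂_congr fun _ _ => mem_cm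

theorem le_cm_comm : A ≤ cm Z M ↔ M ≤ cm Z A := by rw [le_cm, le_cm, Subgroup.commutator_comm]

theorem le_cm_self : Z ≤ cm Z M := le_cm.2 (commutator_le_left _ _)

theorem norm_cm [Finite X] : normalizer (M : Set X) ≤ normalizer (cm Z M : Set X) := fun g hg =>
  mem_normalizer_of_conj_le (conj_le_iff.2 fun x hx => mem_cm.2 fun m hm => by
    have := hZ.conj_mem _ (mem_cm.1 hx _ (mem_normalizer_iff''.1 hg m |>.1 hm)) g
    rwa [show g * ⁅x, g⁻¹ * m * g⁆ * g⁻¹ = ⁅g * x * g⁻¹, m⁆ by group] at this)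

theorem normal_cm [Finite X] [M.Normal] : (cm Z M).Normal :=
  normalizer_eq_top_iff.1 (eq_top_iff.2 ((normalizer_eq_top M).ge.trans norm_cm))

theorem card_map_mk (A : Subgroup X) : Nat.card (A.map (QuotientGroup.mk' Z)) = Z.relIndex A := by
  rw [← relIndex_ker, QuotientGroup.ker_mk']

theorem map_mk_sup (A : Subgroup X) :
    (Z ⊔ A).map (QuotientGroup.mk' Z) = A.map (QuotientGroup.mk' Z) := by
  rw [Subgroup.map_sup, (Subgroup.map_eq_bot_iff Z).2 (QuotientGroup.ker_mk' Z).ge, bot_sup_eq]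

theorem step [Finite X] {p : ℕ} [Fact p.Prime] {P : Subgroup X} (hP : IsPGroup p P) (hAB : A ≤ B)
    (hB : B ≤ Z ⊔ P) {x : X} (hx : x ∈ B) (hxA : x ∉ Z ⊔ A) : p * Z.relIndex A ≤ Z.relIndex B := by
  rw [← card_map_mk, ← card_map_mk]
  obtain ⟨K, -, h1, -, h2⟩ := PGroup.exists_card_eq_mul_of_lt
    ((hP.map (QuotientGroup.mk' Z)).to_le ((map_mono hB).trans (map_mk_sup P).le))
    (lt_of_le_of_ne (map_mono hAB) fun e => hxA (by
      have : x ∈ (A.map (QuotientGroup.mk' Z)).comap (QuotientGroup.mk' Z) := e ▸ mem_map_of_mem _ hx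
      rwa [comap_map_eq, QuotientGroup.ker_mk', sup_comm] at this))
  exact h2 ▸ card_le_of_le h1

end

theorem comm_sup_zpowers {A : Subgroup X} {x : X} (hA : ∀ a ∈ A, ∀ b ∈ A, a * b = b * a)
    (hx : ∀ a ∈ A, a * x = x * a) : ∀ a ∈ A ⊔ zpowers x, ∀ b ∈ A ⊔ zpowers x, a * b = b * a := by
  haveI : IsMulCommutative A := ⟨⟨fun a b => Subtype.ext (hA a a.2 b b.2)⟩⟩
  haveI := PGroup.isMulCommutative_sup_zpowers (A := A) (x := x) (mem_centralizer_iff.2 hx)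
  exact fun a ha b hb => mul_comm_of_mem_isMulCommutative _ ha hb

theorem commutator_mul_right_of_central {y a b : X} (h : ⁅y, b⁆ ∈ center X) :
    ⁅y, a * b⁆ = ⁅y, a⁆ * ⁅y, b⁆ := by
  have := mem_center_iff.1 h a
  calc ⁅y, a * b⁆ = ⁅y, a⁆ * (a * ⁅y, b⁆) * a⁻¹ := by group
    _ = _ := by rw [this]; group

variable [Finite X] {Z M L W : Subgroup X} {μ : X → ℂ} {p : ℕ} [hp : Fact p.Prime]

theorem CT.f4 (h : CT Z μ) (hy : Hyp ⊤ Z) (P : Sylow p X) : ⁅(P : Subgroup X), (P : Subgroup X)⁆ ≤ Z ∨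
    Z.relIndex P = p ^ 4 ∧ ¬ p ^ 6 ∣ Z.index := by
  haveI := h.normal
  by_cases h6 : p ^ 6 ∣ Z.index
  · exact .inl (hy p hp.out (by rwa [relIndex_top_right]) P le_top P.2)
  obtain ⟨j, hj, -⟩ := h.sylow P
  have h1 : Z.relIndex P ∣ Z.index := relIndex_dvd_index_of_normal _ _
  have h2 : j ≤ 2 := by
    by_contra h3
    exact h6 ((pow_dvd_pow p (by omega)).trans (hj ▸ h1))
  by_cases h3 : j = 2
  · exact .inr ⟨by rw [hj, h3], h6⟩
  have := PGroup.isMulCommutative_of_card_le_sq (P.2.map (QuotientGroup.mk' Z))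
    (by rw [card_map_mk, hj]; exact Nat.pow_le_pow_right hp.out.pos (by omega))
  exact .inl (commutator_le.2 fun a ha b hb => commute_mk_iff.1
    (mul_comm_of_mem_isMulCommutative _ (mem_map_of_mem _ ha) (mem_map_of_mem _ hb)))

theorem CT.not_cube (h : CT Z μ) (P : Sylow p X) (h4 : Z.relIndex P = p ^ 4) {A : Subgroup X}
    (hA : A ≤ Z ⊔ (P : Subgroup X)) (hc : ∀ a ∈ A, ∀ b ∈ A, a * b = b * a) :
    Z.relIndex A ≤ p ^ 2 := by
  have := h.f2 P hA hc
  rw [h4, show 4 = 2 * 2 from rfl, pow_mul] at this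
  exact (Nat.pow_le_pow_iff_left two_ne_zero).1 this

theorem CT.exists_noncomm (h : CT Z μ) (hy : Hyp ⊤ Z) [Z.Normal] [M.Normal] (P : Sylow p X)
    (hZM : Z ≤ M) (hMP : M ≤ Z ⊔ (P : Subgroup X)) (hM : ¬ M ≤ Z) (hc : M ≤ cm Z M) :
    ¬ M ≤ centralizer (cm Z M : Set X) := by
  intro hC
  have k : ∀ m ∈ M, ∀ c ∈ cm Z M, c * m = m * c := fun m hm => mem_centralizer_iff.1 (hC hm)
  haveI := P.2.isNilpotent
  obtain ⟨y, ⟨hyM, -⟩, hyZ, hyP⟩ := PGroup.exists_mem_not_mem_commutator_mem (M := Z)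
    (inf_le_right : M ⊓ P ≤ P) ((le_inf (CharDeg.le_normalizer_of_normal' M P) le_normalizer).trans
      inf_normalizer_le_normalizer_inf) fun e => hM fun m hm => by
    obtain ⟨z, hz, u, hu, rfl⟩ := mem_sup_of_normal_left.1 (hMP hm)
    exact Z.mul_mem hz (e ⟨(M.mul_mem_cancel_left (hZM hz)).1 hm, hu⟩)
  have h1 : ¬ M ≤ cm Z P := fun e => by
    obtain ⟨g, hg, -, h2⟩ := h.f1 P (hMP hyM) hyZ
    exact h2 (commutatorElement_eq_one_iff_mul_comm.2 (k y hyM g (le_cm_comm.1 e hg)))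
  obtain ⟨x, hx, hxP⟩ := SetLike.not_le_iff_exists.1 h1
  have h2 := step (A := ⊥) P.2 bot_le (inf_le_left.trans hMP) (show y ∈ M ⊓ cm Z P from ⟨hyM, mem_cm.2 hyP⟩)
    (by rwa [sup_bot_eq])
  have h3 := step P.2 (inf_le_left : M ⊓ cm Z P ≤ M) hMP hx
    fun e => hxP ((sup_le le_cm_self inf_le_right : Z ⊔ M ⊓ cm Z P ≤ _) e)
  rw [relIndex_bot_right] at h2
  have h4 := ((h.f4 hy P).resolve_left fun e =>
    h1 (hMP.trans (sup_le le_cm_self (le_cm.2 e)))).1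
  have hab : ∀ a ∈ M, ∀ b ∈ M, a * b = b * a := fun a ha b hb => k b hb a (hc ha)
  have h5 := h.not_cube P h4 hMP hab
  set f := QuotientGroup.mk' Z
  haveI : (M.map f).Normal := Normal.map inferInstance f (QuotientGroup.mk'_surjective Z)
  have h6 : Nat.card ((M.map f).subgroupOf ((P : Subgroup X).map f)) ≤ p ^ 2 := by
    rw [Nat.card_congr (subgroupOfEquivOfLe ((map_mono hMP).trans (map_mk_sup _).le)).toEquiv,
      card_map_mk]
    exact h5
  have h7 := FGS.index_centralizer_le_of_card_le_sq (P.2.map f) _ h6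
  have h8 := (centralizer (SetLike.coe ((M.map f).subgroupOf ((P : Subgroup X).map f)))).card_mul_index
  rw [card_map_mk, h4] at h8
  have p2 := hp.out.two_le
  obtain ⟨⟨_, c, hcP, rfl⟩, c1, c2⟩ := SetLike.not_le_iff_exists.1 fun e : centralizer
      (SetLike.coe ((M.map f).subgroupOf ((P : Subgroup X).map f))) ≤ (M.map f).subgroupOf _ => by
    have := Nat.mul_le_mul ((card_le_of_le e).trans h6) h7
    rw [h8, ← pow_succ] at this
    exact absurd ((Nat.pow_le_pow_iff_right p2).1 this) (by norm_num)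
  have c3 : c ∈ cm Z M := mem_cm.2 fun m hm => commute_mk_iff.1 (congrArg Subtype.val
    (mem_centralizer_iff.1 c1 ⟨f m, (map_mk_sup _).le (mem_map_of_mem f (hMP hm))⟩
      (mem_map_of_mem f hm))).symm
  have hle : M ⊔ zpowers c ≤ Z ⊔ (P : Subgroup X) := sup_le hMP (zpowers_le.2 (mem_sup_right hcP))
  have c4 := step P.2 le_sup_left hle (mem_sup_right (mem_zpowers c))
    fun e => c2 (mem_map_of_mem f ((sup_le hZM le_rfl :) e))
  have c5 := h.not_cube P h4 hle (comm_sup_zpowers hab fun a ha => (k a ha c c3).symm)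
  nlinarith

theorem mem_center_of_normalizer {L : Type*} [Group L] [Finite L] (hL : _root_.commutator L = ⊤)
    (P : Sylow p L) (hP : ⁅(P : Subgroup L), (P : Subgroup L)⁆ ≤ center L) {w : L}
    (hw : w ∈ (P : Subgroup L)) (h : ∀ n ∈ normalizer ((P : Subgroup L) : Set L), ⁅n, w⁆ ∈ center L) :
    w ∈ center L := by
  set f := QuotientGroup.mk' (center L)
  have hf : Function.Surjective f := QuotientGroup.mk'_surjective _
  let T : Sylow p (L ⧸ center L) := P.mapSurjective hf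
  haveI : IsMulCommutative (T : Subgroup (L ⧸ center L)) := ⟨⟨by
    rintro ⟨_, a, ha, rfl⟩ ⟨_, b, hb, rfl⟩
    exact Subtype.ext (commute_mk_iff.2 (hP (commutator_mem_commutator ha hb)))⟩⟩
  have h1 := commutator_inf_eq_of_abelian T
  rw [_root_.commutator_def, ← map_top_of_surjective f hf, ← map_commutator, ← _root_.commutator_def, hL,
    map_top_of_surjective f hf, top_inf_eq] at h1
  have h2 := (abelian_sylowIn_decomposition T.2 le_normalizer le_rfl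
    (sylow_not_dvd_relIndex T le_normalizer)).2
  rw [← h1] at h2
  refine (QuotientGroup.eq_one_iff w).1 (mem_bot.1 (h2.le ⟨mem_map_of_mem f hw,
    mem_centralizer_iff.2 fun n hn => ?_⟩))
  obtain ⟨n, rfl⟩ := hf n
  have h3 : n ∈ normalizer ((P : Subgroup L) : Set L) ⊔ f.ker :=
    (FGS.comap_normalizer_map_sylow hf P).le hn
  obtain ⟨a, ha, b, hb, rfl⟩ := mem_sup_of_normal_right.1 h3
  rw [map_mul, MonoidHom.mem_ker.1 hb, mul_one]
  exact commute_mk_iff.2 (h a ha)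

theorem CT.commutator_mem (h : CT Z μ) (P : Sylow p X) (hPL : (P : Subgroup X) ≤ normalizer (L : Set X))
    (hW : W ≤ (P : Subgroup X) ⊓ L)
    (hN : normalizer (((P : Subgroup X) ⊓ L : Subgroup X) : Set X) ≤ normalizer (W : Set X))
    (h1 : ⁅(P : Subgroup X), W⁆ ≤ Z) (h2 : W ≤ centralizer (((P : Subgroup X) ⊓ L : Subgroup X) : Set X))
    {n : X} (hnL : n ∈ L) (hn : n ∈ normalizer (((P : Subgroup X) ⊓ L : Subgroup X) : Set X)) :
    ∀ w ∈ W, ⁅n, w⁆ ∈ Z := by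
  haveI := h.normal
  have hle : (P : Subgroup X) ≤ cm Z W ⊓ (L ⊔ P) := le_inf (le_cm.2 h1) le_sup_right
  obtain ⟨d, ⟨hd, hd'⟩, hk⟩ := frattini_argument (K := zpowers n) hle P.2 (sylow_not_dvd_relIndex P hle)
    (zpowers_le.2 (inf_normalizer_le_normalizer_inf ⟨norm_cm (hN hn),
      le_normalizer (mem_sup_left hnL)⟩)) (mem_zpowers n)
  obtain ⟨l, hl, u, hu, e⟩ := exists_mul_of_mem_sup hPL (mul_mem hd' (mem_sup_left hnL))
  have hlP : l ∈ normalizer ((P : Subgroup X) : Set X) :=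
    (mul_mem_cancel_right (le_normalizer hu)).1 (e ▸ hk)
  suffices l ∈ cm Z W from mem_cm.1 (((cm Z W).mul_mem_cancel_left hd).1 (e ▸ mul_mem this (le_cm.2 h1 hu)))
  refine mem_cm.2 fun y hy => by_contra fun hne => ?_
  have hyP := (hW hy).1
  have k : ∀ g ∈ (P : Subgroup X), ⁅y, g⁆ ∈ center X := fun g hg => by
    rw [← commutatorElement_inv]
    exact inv_mem (h.cent (h1 (commutator_mem_commutator hg hy)))
  obtain ⟨g, hg, -, h3⟩ := h.f1 P (mem_sup_right (mul_mem ((mem_normalizer_iff.1 hlP y).1 hyP)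
    (inv_mem hyP))) hne
  have hg' : l⁻¹ * g * l ∈ (P : Subgroup X) := (mem_normalizer_iff''.1 hlP g).1 hg
  have hc : g⁻¹ * (l⁻¹ * g * l) ∈ (P : Subgroup X) ⊓ L := ⟨P.1.mul_mem (P.1.inv_mem hg) hg', by
    rw [← mul_assoc, ← mul_assoc]
    exact mul_mem ((mem_normalizer_iff''.1 (hPL hg) _).1 (inv_mem hl)) hl⟩
  have h4 : ⁅y, g⁻¹ * (l⁻¹ * g * l)⁆ = 1 :=
    commutatorElement_eq_one_iff_mul_comm.2 (mem_centralizer_iff.1 (h2 hy) _ hc).symm
  have h5 := commutator_mul_right_of_central (a := g) (h4 ▸ one_mem _)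
  rw [h4, mul_one, mul_inv_cancel_left] at h5
  have h6 : ⁅l * y * l⁻¹, g⁆ = ⁅y, g⁆ := by
    calc ⁅l * y * l⁻¹, g⁆ = l * ⁅y, l⁻¹ * g * l⁆ * l⁻¹ := by group
      _ = _ := by rw [h5, mem_center_iff.1 (k g hg) l, mul_inv_cancel_right]
  apply h3
  have h7 := mem_center_iff.1 (k g hg)
  generalize l * y * l⁻¹ = v at h6 ⊢
  have h8 : g * v * g⁻¹ = ⁅y, g⁆⁻¹ * v := by
    rw [← h6]; group
  have h9 : g * y * g⁻¹ = ⁅y, g⁆⁻¹ * y := by
    group
  calc ⁅g, v * y⁻¹⁆ = (g * v * g⁻¹) * (g * y * g⁻¹)⁻¹ * (v * y⁻¹)⁻¹ := by group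
    _ = ⁅y, g⁆⁻¹ * (v * y⁻¹ * ⁅y, g⁆) * (v * y⁻¹)⁻¹ := by rw [h8, h9]; group
    _ = 1 := by rw [h7]; group

end Cfsg.Lib.CT2
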